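import Cfsg.Agent.H277.EM.Univ
import Cfsg.Agent.CTwoTab.FiTF
import Cfsg.Agent.S2055

/-!
# S2243: the row `Fi24'` (helper820)
-/

set_option autoImplicit false

namespace Cfsg.Agent.H820.EM

open Cfsg Cfsg.Spor Cfsg.Agent.R01 Cfsg.Agent.R08 Cfsg.Agent.R08.FiTwentyFour
open Cfsg.Agent.R08.TetTwo Cfsg.Agent.R08.TetThree Cfsg.Agent.R08.TetBasic
open Subgroup Cfsg.Agent.CTwoTab Cfsg.Agent.CTwoTab.FiTF

universe u

theorem crow_fi24 {L : Type u} [Group L] [Finite L] [IsSimpleGroup L] (h : Cfsg.Spor.IsoFi24' L) :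
    Cfsg.Agent.H277.MI.CRow L := by
  obtain ⟨e⟩ := h
  have hfin : Finite Spor.Fi24' := Finite.of_equiv L e.toEquiv
  obtain ⟨t₀, ht₀⟩ : ∃ t₀ : Spor.Fi24', ∀ t : Spor.Fi24', (∃ a b : Fi24, ∃ _ : Cfsg.Agent.R08.TetFi24A.At a b,
      (t : Fi24) = a * b) → IsConj t t₀ := by
    by_cases hex : ∃ t : Spor.Fi24', ∃ a b : Fi24, ∃ _ : Cfsg.Agent.R08.TetFi24A.At a b, (t : Fi24) = a * b
    · obtain ⟨t₀, a₀, b₀, P₀, h₀⟩ := hex
      refine ⟨t₀, ?_⟩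
      rintro t ⟨a, b, P, h1⟩
      obtain ⟨g, hg, h2, h3⟩ := FiTwentyFour.trans2 P.ha P.hb P₀.ha P₀.hb P.ne P.ab P₀.ne P₀.ab
      refine isConj_iff.2 ⟨⟨g, hg⟩, Subtype.ext ?_⟩
      show g * (t : Fi24) * g⁻¹ = t₀
      rw [h1, h₀, ← h2, ← h3]
      group
    · exact ⟨1, fun t ht => absurd ⟨t, ht⟩ hex⟩
  refine Cfsg.Agent.H277.MI.CRow.congr e (Cfsg.Agent.H277.MI.CRow.of_two_classes t₀ z0 (fun t ht => ?_)
    (Cfsg.Agent.H277.MI.expTwo_of_cyclic S2055.result (by norm_num)))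
  rcases classes t ht with h | ⟨g, hg⟩
  · exact Or.inl (ht₀ t h)
  · exact Or.inr (isConj_iff.2 ⟨g, hg.symm⟩).symm

end Cfsg.Agent.H820.EM
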