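import Cfsg.Agent.H277.EM.Univ
import Cfsg.Agent.CTwoTab.HN
import Cfsg.Agent.S2056

/-!
# S2243: the row `HN` (helper820)
-/

set_option autoImplicit false

namespace Cfsg.Agent.H820.EM

open Subgroup Cfsg Cfsg.Agent.H277.MI Cfsg.Agent.OddHalf.D4.Spor.HN Cfsg.Agent.HN Cfsg.Agent.HN.XWords Cfsg.Agent.HN.XStruct

universe u

theorem crow_hn {L : Type u} [Group L] [Finite L] [IsSimpleGroup L] (h : Cfsg.Spor.IsoHN L) : CRow L := by
  obtain ⟨e⟩ := h
  have hfin : Finite Spor.HN := Finite.of_equiv L e.toEquiv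
  refine CRow.congr e (CRow.of_two_classes W0 (Q 0) (fun t ht => ?_) (expTwo_of_cyclic S2056.result (by norm_num)))
  rcases OddHalf.D4.Spor.HN.inv_cases (sq_of_orderOf ht) (ne_one_of_orderOf ht) with ⟨g, hg⟩ | ⟨g, hg⟩
  · exact Or.inl (isConj_iff.2 ⟨g, hg⟩).symm
  · exact Or.inr (isConj_iff.2 ⟨g, hg⟩).symm

end Cfsg.Agent.H820.EM
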