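import Cfsg.Agent.H277.EM.Univ
import Cfsg.Agent.CTwoTab.He
import Cfsg.Agent.CTwoTab.Ru
import Cfsg.Agent.H169.UnfHeRu
import Cfsg.Agent.S2049
import Cfsg.Agent.S2051

/-!
# S2243: the rows `He`, `Ru` (helper820)
-/

set_option autoImplicit false

namespace Cfsg.Agent.H820.EM

open Subgroup Cfsg Cfsg.Agent.H277.MI

universe u

section He

open Cfsg.Spor Cfsg.Spor.He Cfsg.Agent.CTwoTab.He Cfsg.Agent.KFacts.He.TwoACent Cfsg.Agent.KFacts.He.Lv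

theorem crow_he {L : Type u} [Group L] [Finite L] [IsSimpleGroup L] (h : Cfsg.Spor.IsoHe L) : CRow L := by
  obtain ⟨e⟩ := h
  have hfin := Cfsg.Agent.KFacts.He.Hyp.finHe
  refine CRow.congr e (CRow.of_two_classes z (gn .a) (fun t ht => ?_) (expTwo_of_cyclic S2049.result (by norm_num)))
  exact (classes (Cfsg.Agent.H277.MI.sq_of_orderOf ht) (Cfsg.Agent.H277.MI.ne_one_of_orderOf ht)).imp IsConj.symm
    IsConj.symm

end He

section Ru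

open Cfsg.Agent.RuB Cfsg.Agent.RuB.Core Cfsg.Agent.RuB.Count Cfsg.Agent.RuB.NormQ
open Cfsg.Agent.RuB.NormZ Cfsg.Agent.Ru127.Form Cfsg.Agent.Ru127.Basic
open Cfsg.Agent.Ru127.FixD (DV)
open Cfsg.Agent.KFacts.Ru Cfsg.Agent.ThreePrime Cfsg.Agent.CTwoTab.Ru

theorem crow_ru {L : Type u} [Group L] [Finite L] [IsSimpleGroup L] (h : Cfsg.Spor.IsoRu L) : CRow L := by
  obtain ⟨C, -, -⟩ := exists_core_sz h
  obtain ⟨e⟩ := h
  obtain ⟨K, hν, hμ, Ld, hcz⟩ := Cfsg.Agent.Ru127.Sg.exists_localData C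
  have hv : ∀ a a' : A4, a ≠ 0 → a' ≠ 0 → IsConj (C.v a) (C.v a') := fun a a' ha ha' => by
    obtain ⟨g, hg⟩ := Cfsg.Agent.Ru127.CardD.DV_single Ld Local.Zs_mem_ZZ ha
      (d := C.v a') ⟨1, a', ha', by group⟩
    exact isConj_iff.2 ⟨g, hg⟩
  obtain ⟨a₀, ha₀⟩ : ∃ a₀ : A4, a₀ ≠ 0 := ⟨1, by decide +kernel⟩
  refine CRow.of_two_classes (C.z 1) (C.v a₀) (fun t ht => ?_) (ExpTwo.congr e (expTwo_of_cyclic S2051.result (by norm_num)))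
  rcases InvC.invol_cases C (Cfsg.Agent.H277.MI.sq_of_orderOf ht) (Cfsg.Agent.H277.MI.ne_one_of_orderOf ht) with
    ⟨g, hg⟩ | ⟨g, a, ha, hg⟩
  · exact Or.inl (isConj_iff.2 ⟨g, hg⟩).symm
  · exact Or.inr ((hv a₀ a ha₀ ha).trans (isConj_iff.2 ⟨g, hg⟩)).symm

end Ru

end Cfsg.Agent.H820.EM
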