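import Cfsg.Agent.H277.EM.Univ
import Cfsg.Agent.J4Type.Final
import Cfsg.Agent.S1703
import Cfsg.Agent.S2042

/-!
# S2243: the row `J4` (helper820)
-/

set_option autoImplicit false

namespace Cfsg.Agent.H820.EM

open Subgroup Cfsg Cfsg.Agent.H277.MI

universe u

theorem crow_j4 {L : Type u} [Group L] [Finite L] [IsSimpleGroup L] (h : Cfsg.Spor.IsoJ4 L) : CRow L := by
  obtain ⟨e⟩ := h
  obtain ⟨-, x, y, -, -, -, hxy⟩ := Cfsg.Agent.J4Type.Final.isJ4_and_classes S1703.result
    (f := e.symm.toMonoidHom) e.symm.bijective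
  exact CRow.of_two_classes x y hxy (ExpTwo.congr e (expTwo_of_cyclic S2042.result (by norm_num)))

end Cfsg.Agent.H820.EM
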