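import Cfsg.Agent.H277.EM.Univ
import Cfsg.Agent.CTwoTab.JTwo
import Cfsg.Agent.CTwoTab.HS
import Cfsg.Agent.S2040
import Cfsg.Agent.S2046

/-!
# S2243: the rows `J2`, `HS` (helper820)
-/

set_option autoImplicit false

namespace Cfsg.Agent.H820.EM

open Subgroup Cfsg Cfsg.Agent.H277.MI Cfsg.Agent.KFacts.HS Cfsg.Agent.KFacts.HS.DFour

universe u

theorem crow_j2 {L : Type u} [Group L] [Finite L] [IsSimpleGroup L] (h : Cfsg.Spor.IsoJ2 L) : CRow L := by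
  obtain ⟨t, u, Q, v, ρ, D⟩ := Cfsg.Agent.KFacts.J2.Facts.exists_dat_of h
  obtain ⟨e⟩ := h
  refine CRow.of_two_classes t u (fun s hs => ?_) (ExpTwo.congr e (expTwo_of_cyclic S2040.result (by norm_num)))
  exact (D.F.cover s hs).imp IsConj.symm IsConj.symm

theorem crow_hs {L : Type u} [Group L] [Finite L] [IsSimpleGroup L] (h : Cfsg.Spor.IsoHS L) : CRow L := by
  obtain ⟨D⟩ := Cfsg.Agent.KFacts.HS.exists_mod h
  obtain ⟨e⟩ := h
  refine CRow.of_two_classes (zA D) (wB D) (fun s hs => ?_) (ExpTwo.congr e (expTwo_of_cyclic S2046.result (by norm_num)))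
  rcases inv_cases D s (sq_of_orderOf hs) (ne_one_of_orderOf hs) with ⟨c, h⟩ | ⟨c, h⟩
  · exact Or.inl (isConj_iff.2 ⟨c⁻¹, by rw [← h]; group⟩)
  · exact Or.inr (isConj_iff.2 ⟨c⁻¹, by rw [← h]; group⟩)

end Cfsg.Agent.H820.EM
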