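import Cfsg.Agent.H277.EM.Univ
import Cfsg.Agent.CTwoTab.Monster
import Cfsg.Agent.S2059

/-!
# S2243: the row `M` (helper820)
-/

set_option autoImplicit false

namespace Cfsg.Agent.H820.EM

open Subgroup Cfsg Cfsg.Agent.H277.MI Cfsg.Agent.MonsterX.MainPack Cfsg.Agent.MonsterX.Model
open Cfsg.Agent.MonsterX.MainBasic Cfsg.Agent.MonsterX.MainSimple

universe u

theorem crow_m {L : Type u} [Group L] [Finite L] [IsSimpleGroup L] (h : Cfsg.Spor.IsoM L) : CRow L := by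
  obtain ⟨e⟩ := h
  obtain ⟨f⟩ := Cfsg.Agent.MonsterP.Equiv.equiv
  have A := Cfsg.Agent.MonsterU.Uncond.all
  have hf : Finite ↥Cfsg.Agent.MonsterX.InstData.M.G := Cfsg.Agent.MonsterX.MainBasic.G_finite A.hO
  refine CRow.congr (e.trans f) (CRow.of_two_classes (zG A.hG) (tG A.hG A.hR) (fun t ht => ?_)
    (ExpTwo.congr f.symm (expTwo_of_cyclic S2059.result (by norm_num))))
  rcases A.classes t (sq_of_orderOf ht) (ne_one_of_orderOf ht) with ⟨g, hg⟩ | ⟨g, hg⟩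
  · exact Or.inl (isConj_iff.2 ⟨g, hg⟩).symm
  · exact Or.inr (isConj_iff.2 ⟨g, hg⟩).symm

end Cfsg.Agent.H820.EM
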