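import Cfsg.Agent.H277.EM.Univ
import Cfsg.Agent.CTwoTab.Suz
import Cfsg.Agent.CTwoTab.Co3
import Cfsg.Agent.S2048
import Cfsg.Agent.S2045

/-!
# S2243: the rows `Suz`, `Co3` (helper820)
-/

set_option autoImplicit false

namespace Cfsg.Agent.H820.EM

open Subgroup Cfsg Cfsg.Agent.H277.MI

universe u

section Suz

open Cfsg.Agent.KFacts Cfsg.Agent.SuzThree.CentA Cfsg.Agent.SuzThree.QZero Cfsg.Agent.KFacts.SuzLFour

theorem crow_suz {L : Type u} [Group L] [Finite L] [IsSimpleGroup L] (h : Cfsg.Spor.IsoSuz L) : CRow L := by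
  obtain ⟨e⟩ := h
  have hfin : Finite Spor.Suz := Finite.of_equiv L e.toEquiv
  refine CRow.congr e (CRow.of_two_classes z0 e0 (fun t ht => ?_) (expTwo_of_cyclic S2048.result (by norm_num)))
  exact (Cfsg.Agent.CTwoTab.Suz.classes (sq_of_orderOf ht) (ne_one_of_orderOf ht)).imp IsConj.symm IsConj.symm

end Suz

section CoThree

open Cfsg.Agent.CTwoTab.Co3

theorem crow_co3 {L : Type u} [Group L] [Finite L] [IsSimpleGroup L] (h : Cfsg.Spor.IsoCo3 L) : CRow L := by
  obtain ⟨e⟩ := h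
  obtain ⟨w, D⟩ := exists_data
  have := finite_G3
  refine CRow.congr (e.trans SporRec.Co3.Model.equivCo3.symm) (CRow.of_two_classes SporRec.Co3.Ident.Z w (fun t ht => ?_)
    (ExpTwo.congr SporRec.Co3.Model.equivCo3 (expTwo_of_cyclic S2045.result (by norm_num))))
  obtain ⟨g, h | h⟩ := D.cls t ht
  · exact Or.inl (isConj_iff.2 ⟨g⁻¹, by rw [h]; group⟩)
  · exact Or.inr (isConj_iff.2 ⟨g⁻¹, by rw [h]; group⟩)

end CoThree

end Cfsg.Agent.H820.EM
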